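import Cfsg.Agent.Z2S.Par

/-! A parity lemma: Thompson's transfer argument for a subgroup of even index. -/

set_option autoImplicit false

namespace Cfsg.Agent.SM

open Subgroup MulAction

section

variable {G : Type*} [Group G] [Finite G] {K₀ K : Subgroup G} {t : G}

variable (K₀ K t) in
/-- the odd cosets fixed by `Y` -/
def Om (Y : Subgroup G) : Set (G ⧸ K) :=
  {q | (∀ y ∈ Y, y • q = q) ∧ ∀ g : G, (g : G ⧸ K) = q → g⁻¹ * t * g ∉ K₀}

omit [Finite G] in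
theorem smul_mk_iff {y g : G} : y • (g : G ⧸ K) = g ↔ g⁻¹ * y * g ∈ K := by
  rw [show y • (g : G ⧸ K) = ((y * g : G) : G ⧸ K) from rfl, eq_comm, QuotientGroup.eq, mul_assoc]

omit [Finite G] in
theorem mem_Om (h0 : K₀ ≤ K) (hi : K₀.relIndex K = 2) {Y : Subgroup G} {g : G} :
    (g : G ⧸ K) ∈ Om K₀ K t Y ↔ (∀ y ∈ Y, g⁻¹ * y * g ∈ K) ∧ g⁻¹ * t * g ∉ K₀ := by
  refine ⟨fun h => ⟨fun y hy => smul_mk_iff.1 (h.1 y hy), h.2 g rfl⟩,
    fun h => ⟨fun y hy => smul_mk_iff.2 (h.1 y hy), fun x e f => h.2 ?_⟩⟩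
  have := (normal_of_index_eq_two hi).conj_mem
    ⟨_, h0 f⟩ f
    ⟨_, QuotientGroup.eq.1 e.symm⟩
  simpa [mem_subgroupOf, mul_assoc] using this

theorem Om_step (h0 : K₀ ≤ K) (hi : K₀.relIndex K = 2) {B : Subgroup G} (hB : IsPGroup 2 B) (A : Subgroup G) :
    A ≤ B → (∀ s ∈ B, ∃ k ∈ A, s * t * s⁻¹ = k * k * t) →
      Even (Om K₀ K t A).ncard → Even (Om K₀ K t B).ncard := by
  have := Fact.mk Nat.prime_two
  induction A using WellFoundedGT.induction with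
  | ind A ih =>
  intro hA hs h
  rcases hA.eq_or_lt with rfl | hl
  · exact h
  have := hB.isNilpotent
  have h1 : A < B ⊓ normalizer (A : Set G) := by
    have := Group.normalizerCondition_of_isNilpotent (G := B) (A.subgroupOf B)
      (lt_top_iff_ne_top.2 fun e => hl.not_ge (subgroupOf_eq_top.1 e))
    rw [← subgroupOf_normalizer_eq hA] at this
    obtain ⟨x, h1, h2⟩ := SetLike.exists_of_lt this
    exact lt_of_le_of_ne (le_inf hA le_normalizer) fun e => h2 (e.ge ⟨x.2, h1⟩)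
  refine ih _ h1 inf_le_left (fun s hs' => let ⟨k, a, b⟩ := hs s hs'; ⟨k, h1.le a, b⟩) ?_
  let S : SubMulAction ↥(B ⊓ normalizer (A : Set G)) (G ⧸ K) := ⟨Om K₀ K t A, fun s q hq => by
    obtain ⟨g, rfl⟩ := QuotientGroup.mk_surjective q
    obtain ⟨q1, q2⟩ := (mem_Om h0 hi).1 hq
    obtain ⟨k, k1, k2⟩ := hs _ (inv_mem s.2.1)
    refine (mem_Om (g := s * g) h0 hi).2 ⟨fun y hy => ?_, fun e => q2 ?_⟩
    · simpa [mul_assoc] using q1 _ ((mem_normalizer_iff''.1 s.2.2 y).1 hy)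
    · have h2 : g⁻¹ * k * g * (g⁻¹ * k * g) ∈ K₀ :=
        mul_self_mem_of_index_two hi (⟨_, q1 k k1⟩ : K)
      rw [show (s * g)⁻¹ * t * (s * g) = g⁻¹ * ((s : G)⁻¹ * t * (s : G)⁻¹⁻¹) * g by group, k2] at e
      simpa [mul_assoc] using mul_mem (inv_mem h2) e⟩
  have h2 := (hB.to_le (inf_le_left (b := normalizer (A : Set G)))).card_modEq_card_fixedPoints S
  have h3 : Nat.card (fixedPoints ↥(B ⊓ normalizer (A : Set G)) S) =
      (Om K₀ K t (B ⊓ normalizer (A : Set G))).ncard := Nat.card_congr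
    ⟨fun q => ⟨q.1.1, fun y hy => congrArg Subtype.val (q.2 ⟨y, hy⟩), q.1.2.2⟩,
      fun q => ⟨⟨q.1, fun y hy => q.2.1 y (h1.le hy), q.2.2⟩, fun y => Subtype.ext (q.2.1 y y.2)⟩,
      fun _ => rfl, fun _ => rfl⟩
  rw [h3, show Nat.card S = (Om K₀ K t A).ncard from rfl, Nat.ModEq] at h2
  rw [Nat.even_iff] at *
  omega

theorem Om_even (hG : ∀ H : Subgroup G, H.index ≠ 2) (h0 : K₀ ≤ K) (hi : K₀.relIndex K = 2)
    (t2 : t * t = 1) : Even (Om K₀ K t (zpowers t)).ncard := by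
  have e : ∀ H : Subgroup G, Nat.card H * Nat.card (fixedBy (G ⧸ H) t) =
      {g : G | g⁻¹ * t * g ∈ H}.ncard := fun H => by
    rw [← QuotientGroup.card_preimage_mk H (fixedBy (G ⧸ H) t)]
    exact congrArg Set.ncard (Set.ext fun g => smul_mk_iff)
  have e1 : Nat.card K * (Om K₀ K t (zpowers t)).ncard =
      ({g : G | g⁻¹ * t * g ∈ K} \ {g : G | g⁻¹ * t * g ∈ K₀}).ncard := by
    rw [← Nat.card_coe_set_eq, ← QuotientGroup.card_preimage_mk K]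
    refine congrArg Set.ncard (Set.ext fun g => (mem_Om h0 hi).trans (and_congr_left' ⟨fun h =>
      h t (mem_zpowers t), ?_⟩))
    rintro h _ ⟨i, rfl⟩
    have := zpow_mem (show g⁻¹ * t * g⁻¹⁻¹ ∈ K by rwa [inv_inv]) i
    rwa [conj_zpow, inv_inv] at this
  have e2 := Set.ncard_sdiff_add_ncard_of_subset (s := {g : G | g⁻¹ * t * g ∈ K₀})
    (t := {g : G | g⁻¹ * t * g ∈ K}) fun g hg => h0 hg
  have e3 : Nat.card K = 2 * Nat.card K₀ := by
    rw [← (K₀.subgroupOf K).index_mul_card, show (K₀.subgroupOf K).index = 2 from hi,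
      Nat.card_congr (subgroupOfEquivOfLe h0).toEquiv]
  obtain ⟨k, hk⟩ := Z2S.fix_mod hG K t2
  obtain ⟨k₀, hk₀⟩ := Z2S.fix_mod hG K₀ t2
  rw [← relIndex_mul_index h0, hi, hk] at hk₀
  rw [← e1, ← e, ← e, e3, mul_comm 2, mul_assoc, mul_assoc, ← mul_add,
    Nat.mul_right_inj Nat.card_pos.ne'] at e2
  rw [Nat.even_iff]
  omega

end

/-- Call `gK ∈ G ⧸ K` odd if `g⁻¹ t g ∈ K ∖ K₀` and even if `g⁻¹ t g ∈ K₀` (well defined, `K₀ ⊴ K`).
`t` fixes `E + D` points of `G ⧸ K` (`E` even, `D` odd cosets) and `2E` points of `G ⧸ K₀` (the map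
`G ⧸ K₀ → G ⧸ K` has fibres of size 2; above an even coset both points are fixed, above an odd one none).
`Z2S.fix_mod` for `K` and `K₀` and `[G:K₀] = 2[G:K]` give `2(E + D + 4k) = 2E + 4k₀`, so `D` is even.
For `T ≤ Y ≤ X` let `Ω Y` be the set of odd cosets fixed by `Y`. `T` commutes with `t`, so acts on the odd cosets,
and `|Ω T| ≡ D` (`IsPGroup.card_modEq_card_fixedPoints`). If `|Ω Y|` is even and `Y < X`, then `Y₁ = N_X(Y) > Y`
(normalizer condition of the nilpotent `X`) acts on `Ω Y`: for `s ∈ Y₁`, `gK ∈ Ω Y`, `(sg)⁻¹ t (sg) = g⁻¹ (k k t) g`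
with `k ∈ T ≤ Y`, `g⁻¹ k g ∈ K`, so its square is in `K₀`. Its fixed points are `Ω Y₁`, so `|Ω Y₁|` is even. By
induction `|Ω X|` is even; it contains the coset `K`, so a second one `gK`; `h = g⁻¹`. -/
theorem parity {G : Type*} [Group G] [Finite G] (hG : ∀ H : Subgroup G, H.index ≠ 2)
    {K₀ K T X : Subgroup G} (h0 : K₀ ≤ K) (hi : K₀.relIndex K = 2) {t : G} (t2 : t * t = 1)
    (hX : IsPGroup 2 X) (hXK : X ≤ K) (hT : T ≤ X) (ht : t ∈ T) (ht0 : t ∉ K₀)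
    (hc : ∀ k ∈ T, Commute k t) (hs : ∀ s ∈ X, ∃ k ∈ T, s * t * s⁻¹ = k * k * t) :
    ∃ h, h ∉ K ∧ (∀ s ∈ X, h * s * h⁻¹ ∈ K) ∧ h * t * h⁻¹ ∉ K₀ := by
  have h1 := Om_step h0 hi hX T hT hs (Om_step h0 hi (hX.to_le hT) _ (zpowers_le.2 ht)
    (fun s a => ⟨1, one_mem _, by rw [(hc s a).eq]; group⟩) (Om_even hG h0 hi t2))
  have h2 : ((1 : G) : G ⧸ K) ∈ Om K₀ K t X :=
    (mem_Om h0 hi).2 ⟨fun y hy => by simpa using hXK hy, by simpa using ht0⟩
  obtain ⟨q, q1, q2⟩ := Set.exists_ne_of_one_lt_ncard (s := Om K₀ K t X) (by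
    have := (Set.ncard_pos (Set.toFinite _)).2 ⟨_, h2⟩
    rw [Nat.even_iff] at h1
    omega) ((1 : G) : G ⧸ K)
  obtain ⟨g, rfl⟩ := QuotientGroup.mk_surjective q
  obtain ⟨g1, g2⟩ := (mem_Om h0 hi).1 q1
  exact ⟨g⁻¹, fun e => q2 (QuotientGroup.eq.2 (by simpa using e)), by simpa using g1,
    by simpa using g2⟩

end Cfsg.Agent.SM
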